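import Cfsg.Agent.Lib.Helper17.SympRoot

set_option autoImplicit false

namespace Cfsg.Agent.Lib.Helper17.RootTransfer

open Cfsg
open Cfsg.Agent.Lib.Helper85
open Cfsg.Agent.Lib.Helper17.SympRoot

variable {G : Type*} [Group G]

theorem map_sub {A H : Subgroup G} (h : A ≤ H) : (A.subgroupOf H).map H.subtype = A :=
  Subgroup.map_subgroupOf_eq_of_le h

theorem conj_of_rankOne {A B : Subgroup G} (h : IsRankOnePair A B) : ∃ g, B = conjBy A g := by
  obtain ⟨a, ha, ha1⟩ := RankOne.exists_ne_one_left h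
  obtain ⟨b, -, -, hb⟩ := h.cond_left a ha ha1
  refine ⟨a * b⁻¹, ?_⟩
  rw [← conjBy_conjBy, hb, conjBy_conjBy, mul_inv_cancel, conjBy_one]

theorem conj_of_reach {S : Set (Subgroup G)} {A B : Subgroup G}
    (h : Relation.ReflTransGen (FAdj S) A B) : ∃ g, B = conjBy A g := by
  induction h with
  | refl => exact ⟨1, (conjBy_one A).symm⟩
  | tail _ h2 ih =>
    obtain ⟨g, rfl⟩ := ih
    obtain ⟨x, hx⟩ := conj_of_rankOne h2.2.2
    exact ⟨x * g, by rw [hx, conjBy_conjBy]⟩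

theorem not_rankOne_of_comm {A B : Subgroup G} (h : ⁅A, B⁆ = ⊥) : ¬ IsRankOnePair A B := by
  intro hr
  obtain ⟨a, ha, ha1⟩ := RankOne.exists_ne_one_left hr
  obtain ⟨b, hb, hb1⟩ := RankOne.exists_ne_one_right hr
  apply Root.RankOne_not_commute hr ha ha1 hb hb1
  rw [Subgroup.commutator_eq_bot_iff_le_centralizer] at h
  exact ((Subgroup.mem_centralizer_iff.1 (h ha)) b hb).symm

/-- A degenerate family: abstract criterion. -/
theorem all_of_pair {k : Type*} [Field k] {S : Set (Subgroup G)}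
    (hcomm : ∀ A ∈ S, IsMulCommutative A) (hne : ∀ A ∈ S, A ≠ ⊥) (hgen : (⨆ A ∈ S, A) = ⊤)
    (hconj : ∀ A ∈ S, ∀ g : G, conjBy A g ∈ S)
    (hpair : ∀ A ∈ S, ∀ B ∈ S, ⁅A, B⁆ = ⊥ ∨ (IsRankOnePair A B ∧ IsPSL2PairOver k A B))
    (hnon : S.Nonempty) (hconn : IsConnectedFamily (FAdj S) S) :
    IsRootSubgroupClass S ∧ IsDegenerateRootSet S ∧ IsKRootSubgroupSet k S ∧
      IsConnectedFamily (FAdj S) S := by
  have hS : IsRootSubgroupSet S := ⟨hcomm, hne, hgen, hconj, fun A hA B hB => by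
    rcases hpair A hA B hB with h | h
    · exact Or.inl h
    · exact Or.inr (Or.inl h.1)⟩
  refine ⟨⟨hS, hnon, fun A hA B hB => conj_of_reach (hconn A hA B hB)⟩, ?_, ⟨hS, ?_⟩, hconn⟩
  · intro A hA B hB hc
    rcases hpair A hA B hB with h | h
    · have h1 := hc.1
      rw [h] at h1
      exact hne _ h1 rfl
    · exact not_commutatorCase_of_rankOne hS hA hB h.1 hc
  · intro A hA B hB hr
    rcases hpair A hA B hB with h | h
    · exact absurd hr (not_rankOne_of_comm h)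
    · exact h.2

section sub

variable (S : Set (Subgroup G))

theorem le_gen {S : Set (Subgroup G)} {A : Subgroup G} (hA : A ∈ S) : A ≤ ⨆ B ∈ S, B :=
  le_iSup₂ (f := fun (B : Subgroup G) (_ : B ∈ S) => B) A hA

theorem psl2_sub {k : Type*} [Field k] {A B H : Subgroup G} (hA : A ≤ H) (hB : B ≤ H)
    (h : IsPSL2PairOver k A B) : IsPSL2PairOver k (A.subgroupOf H) (B.subgroupOf H) := by
  obtain ⟨φ, h1, h2, h3, h4⟩ := h
  have hr : ∀ x, φ x ∈ H := by
    intro x
    have : φ x ∈ φ.range := ⟨x, rfl⟩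
    rw [h1] at this
    exact (sup_le hA hB) this
  have hc : H.subtype.comp (φ.codRestrict H hr) = φ := by
    ext x
    rfl
  refine ⟨φ.codRestrict H hr, ?_, ?_, ?_, ?_⟩
  · apply Subgroup.map_injective H.subtype_injective
    rw [MonoidHom.map_range, hc, h1, Subgroup.map_sup, map_sub hA, map_sub hB]
  · rw [MonoidHom.ker_codRestrict]
    exact h2
  · apply Subgroup.map_injective H.subtype_injective
    rw [Subgroup.map_map, hc, h3, map_sub hA]
  · apply Subgroup.map_injective H.subtype_injective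
    rw [Subgroup.map_map, hc, h4, map_sub hB]

theorem rankOne_sub {A B H : Subgroup G} (hA : A ≤ H) (hB : B ≤ H)
    (h : IsRankOnePair A B) : IsRankOnePair (A.subgroupOf H) (B.subgroupOf H) := by
  apply RankOne.of_map H.subtype_injective
  rw [map_sub hA, map_sub hB]
  exact h

/-- Transfer of a degenerate family to the subgroup it generates. -/
theorem transfer {k : Type*} [Field k] {S : Set (Subgroup G)}
    (hcomm : ∀ A ∈ S, IsMulCommutative A) (hne : ∀ A ∈ S, A ≠ ⊥)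
    (hconj : ∀ A ∈ S, ∀ g : G, conjBy A g ∈ S)
    (hpair : ∀ A ∈ S, ∀ B ∈ S, ⁅A, B⁆ = ⊥ ∨ (IsRankOnePair A B ∧ IsPSL2PairOver k A B))
    (hnon : S.Nonempty) (hconn : IsConnectedFamily (FAdj S) S) :
    IsRootSubgroupClass ((fun A : Subgroup G => A.subgroupOf (⨆ B ∈ S, B)) '' S) ∧
    IsDegenerateRootSet ((fun A : Subgroup G => A.subgroupOf (⨆ B ∈ S, B)) '' S) ∧
    IsKRootSubgroupSet k ((fun A : Subgroup G => A.subgroupOf (⨆ B ∈ S, B)) '' S) ∧
    IsConnectedFamily (FAdj ((fun A : Subgroup G => A.subgroupOf (⨆ B ∈ S, B)) '' S))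
      ((fun A : Subgroup G => A.subgroupOf (⨆ B ∈ S, B)) '' S) := by
  obtain ⟨H, hH⟩ : ∃ H : Subgroup G, H = ⨆ B ∈ S, B := ⟨_, rfl⟩
  rw [← hH]
  have hle : ∀ A ∈ S, A ≤ H := fun A hA => hH ▸ le_gen hA
  apply all_of_pair
  · rintro _ ⟨A, hA, rfl⟩
    refine ⟨⟨?_⟩⟩
    rintro ⟨⟨a, haH⟩, ha⟩ ⟨⟨b, hbH⟩, hb⟩
    apply Subtype.ext
    apply Subtype.ext
    exact comm_of_isMulCommutative (hcomm A hA) (Subgroup.mem_subgroupOf.1 ha)
      (Subgroup.mem_subgroupOf.1 hb)
  · rintro _ ⟨A, hA, rfl⟩ h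
    apply hne A hA
    rw [← map_sub (hle A hA)]
    have h' : A.subgroupOf H = ⊥ := h
    rw [h', Subgroup.map_bot]
  · rw [iSup_image]
    apply Subgroup.map_injective H.subtype_injective
    rw [Subgroup.map_iSup, ← MonoidHom.range_eq_map, Subgroup.range_subtype, hH]
    apply iSup_congr
    intro A
    rw [Subgroup.map_iSup]
    apply iSup_congr
    intro hA
    rw [← hH]
    exact map_sub (hle A hA)
  · rintro _ ⟨A, hA, rfl⟩ g
    refine ⟨conjBy A (g : G), hconj A hA _, ?_⟩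
    apply Subgroup.map_injective H.subtype_injective
    change Subgroup.map H.subtype ((conjBy A (g : G)).subgroupOf H) =
      Subgroup.map H.subtype (conjBy (A.subgroupOf H) g)
    rw [map_conjBy, map_sub (hle A hA), map_sub (hle _ (hconj A hA _))]
    rfl
  · rintro _ ⟨A, hA, rfl⟩ _ ⟨B, hB, rfl⟩
    rcases hpair A hA B hB with h | h
    · left
      apply Subgroup.map_injective H.subtype_injective
      change Subgroup.map H.subtype ⁅A.subgroupOf H, B.subgroupOf H⁆ = Subgroup.map H.subtype ⊥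
      rw [Subgroup.map_commutator, map_sub (hle A hA), map_sub (hle B hB), h, Subgroup.map_bot]
    · exact Or.inr ⟨rankOne_sub (hle A hA) (hle B hB) h.1, psl2_sub (hle A hA) (hle B hB) h.2⟩
  · exact hnon.image _
  · rintro _ ⟨A, hA, rfl⟩ _ ⟨B, hB, rfl⟩
    have h := hconn A hA B hB
    induction h with
    | refl => exact Relation.ReflTransGen.refl
    | tail _ h2 ih =>
      exact Relation.ReflTransGen.tail (ih h2.1) ⟨⟨_, h2.1, rfl⟩, ⟨_, h2.2.1, rfl⟩,
        rankOne_sub (hle _ h2.1) (hle _ h2.2.1) h2.2.2⟩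

end sub

end Cfsg.Agent.Lib.Helper17.RootTransfer
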