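import Cfsg.Agent.Lib.Helper17.RootTransfer
import Cfsg.Agent.Lib.Helper45.SLGen
import Cfsg.Agent.Lib.Helper17.Refl

set_option autoImplicit false

namespace Cfsg.Agent.Lib.Helper17.SLRoot

open Matrix Cfsg
open Cfsg.Agent.Lib.Helper85
open scoped LinearAlgebra.Projectivization

variable {k : Type*} [Field k] {N : ℕ}

theorem exists_sl_two {p r u w : Fin N → k} (hp : p ≠ 0) (hr : r ≠ 0) (hpr : ∀ a : k, r ≠ a • p)
    (hu : u ≠ 0) (hw : w ≠ 0) (huw : ∀ a : k, w ≠ a • u) :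
    ∃ g : SpecialLinearGroup (Fin N) k, ∃ a b : k, a ≠ 0 ∧ b ≠ 0 ∧
      (g : Matrix (Fin N) (Fin N) k) *ᵥ u = a • p ∧ (g : Matrix (Fin N) (Fin N) k) *ᵥ w = b • r := by
  have h2 : MulAction.IsMultiplyPretransitive (SpecialLinearGroup (Fin N) k) (ℙ k (Fin N → k)) 2 :=
    inferInstance
  rw [MulAction.is_two_pretransitive_iff] at h2
  have h1 : Projectivization.mk k u hu ≠ Projectivization.mk k w hw := by
    intro h
    rw [Projectivization.mk_eq_mk_iff'] at h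
    obtain ⟨a, ha⟩ := h
    have ha0 : a ≠ 0 := by
      rintro rfl
      rw [zero_smul] at ha
      exact hu ha.symm
    apply huw a⁻¹
    rw [← ha, smul_smul, inv_mul_cancel₀ ha0, one_smul]
  have h3 : Projectivization.mk k p hp ≠ Projectivization.mk k r hr := by
    intro h
    rw [Projectivization.mk_eq_mk_iff'] at h
    obtain ⟨a, ha⟩ := h
    have ha0 : a ≠ 0 := by
      rintro rfl
      rw [zero_smul] at ha
      exact hp ha.symm
    apply hpr a⁻¹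
    rw [← ha, smul_smul, inv_mul_cancel₀ ha0, one_smul]
  obtain ⟨g, hg1, hg2⟩ := h2 h1 h3
  rw [Projectivization.smul_mk, Projectivization.mk_eq_mk_iff'] at hg1 hg2
  obtain ⟨a, ha⟩ := hg1
  obtain ⟨b, hb⟩ := hg2
  have hgu : g • u ≠ 0 := (smul_ne_zero_iff_ne g).mpr hu
  have hgw : g • w ≠ 0 := (smul_ne_zero_iff_ne g).mpr hw
  refine ⟨g, a, b, ?_, ?_, ha.symm, hb.symm⟩
  · rintro rfl
    rw [zero_smul] at ha
    exact hgu ha.symm
  · rintro rfl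
    rw [zero_smul] at hb
    exact hgw hb.symm


/-- the matrix of an element of `SL` -/
abbrev mat (g : SpecialLinearGroup (Fin N) k) : Matrix (Fin N) (Fin N) k := g

theorem mat_mul_mulVec (A B : SpecialLinearGroup (Fin N) k) (x : Fin N → k) :
    mat (A * B) *ᵥ x = mat A *ᵥ (mat B *ᵥ x) := by
  rw [Matrix.mulVec_mulVec]
  rfl

theorem mat_one_mulVec (x : Fin N → k) : mat (1 : SpecialLinearGroup (Fin N) k) *ᵥ x = x := by
  change (1 : Matrix (Fin N) (Fin N) k) *ᵥ x = x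
  rw [Matrix.one_mulVec]

theorem mat_inv_mulVec (A : SpecialLinearGroup (Fin N) k) (x : Fin N → k) :
    mat A⁻¹ *ᵥ (mat A *ᵥ x) = x := by
  rw [← mat_mul_mulVec, inv_mul_cancel, mat_one_mulVec]

theorem mat_mulVec_inv (A : SpecialLinearGroup (Fin N) k) (x : Fin N → k) :
    mat A *ᵥ (mat A⁻¹ *ᵥ x) = x := by
  rw [← mat_mul_mulVec, mul_inv_cancel, mat_one_mulVec]

theorem sl_ext {A B : SpecialLinearGroup (Fin N) k} (h : ∀ x, mat A *ᵥ x = mat B *ᵥ x) : A = B :=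
  Cfsg.Agent.Lib.Helper45.sl_ext_mulVec h

theorem mat_mulVec_ne_zero (g : SpecialLinearGroup (Fin N) k) {p : Fin N → k} (hp : p ≠ 0) :
    mat g *ᵥ p ≠ 0 := by
  intro h0
  apply hp
  have := mat_inv_mulVec g p
  rw [h0, Matrix.mulVec_zero] at this
  exact this.symm

/-- `g` is the transvection `v ↦ v + c φ(v) p`. -/
def IsTv (p φ : Fin N → k) (c : k) (g : SpecialLinearGroup (Fin N) k) : Prop :=
  ∀ v, mat g *ᵥ v = v + (c * (φ ⬝ᵥ v)) • p

/-- The group of transvections with centre `p` and axis `ker φ`. -/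
def T (p φ : Fin N → k) : Subgroup (SpecialLinearGroup (Fin N) k) :=
  Subgroup.closure {g | ∃ c, IsTv p φ c g}

/-- the transvection as an element of `SL`. -/
def tv (p φ : Fin N → k) (h : φ ⬝ᵥ p = 0) (c : k) : SpecialLinearGroup (Fin N) k :=
  ⟨1 + c • vecMulVec p φ, by rw [det_one_add_smul_vecMulVec, h, mul_zero, add_zero]⟩

theorem isTv_tv (p φ : Fin N → k) (h : φ ⬝ᵥ p = 0) (c : k) : IsTv p φ c (tv p φ h c) := by
  intro v
  change (1 + c • vecMulVec p φ) *ᵥ v = _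
  simp only [Matrix.add_mulVec, Matrix.one_mulVec, Matrix.smul_mulVec, Matrix.vecMulVec_mulVec,
    op_smul_eq_smul, smul_smul]

theorem IsTv.one (p φ : Fin N → k) : IsTv p φ 0 1 := by
  intro v
  rw [mat_one_mulVec]
  simp

theorem IsTv.mul {p φ : Fin N → k} (h0 : φ ⬝ᵥ p = 0) {c d : k}
    {g g' : SpecialLinearGroup (Fin N) k} (h : IsTv p φ c g) (h' : IsTv p φ d g') :
    IsTv p φ (c + d) (g * g') := by
  intro v
  rw [mat_mul_mulVec, h', h, dotProduct_add, dotProduct_smul, h0]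
  module

theorem IsTv.inv {p φ : Fin N → k} (h0 : φ ⬝ᵥ p = 0) {c : k}
    {g : SpecialLinearGroup (Fin N) k} (h : IsTv p φ c g) : IsTv p φ (-c) g⁻¹ := by
  intro v
  have h1 : mat g *ᵥ (v + (-c * (φ ⬝ᵥ v)) • p) = v := by
    rw [h, dotProduct_add, dotProduct_smul, h0]
    module
  conv_lhs => rw [← h1]
  rw [mat_inv_mulVec]

theorem IsTv.ext {p φ : Fin N → k} {c : k} {g g' : SpecialLinearGroup (Fin N) k}
    (h : IsTv p φ c g) (h' : IsTv p φ c g') : g = g' :=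
  sl_ext fun v => by rw [h, h']

theorem mem_T {p φ : Fin N → k} (h0 : φ ⬝ᵥ p = 0) {g : SpecialLinearGroup (Fin N) k} :
    g ∈ T p φ ↔ ∃ c, IsTv p φ c g := by
  constructor
  · intro hg
    unfold T at hg
    induction hg using Subgroup.closure_induction with
    | mem x hx => exact hx
    | one => exact ⟨0, IsTv.one p φ⟩
    | mul x y _ _ hx hy =>
      obtain ⟨s, hs⟩ := hx
      obtain ⟨t, ht⟩ := hy
      exact ⟨s + t, hs.mul h0 ht⟩
    | inv x _ hx =>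
      obtain ⟨s, hs⟩ := hx
      exact ⟨-s, hs.inv h0⟩
  · intro h
    exact Subgroup.subset_closure h

theorem IsTv.mem {p φ : Fin N → k} {c : k} {g : SpecialLinearGroup (Fin N) k}
    (h : IsTv p φ c g) : g ∈ T p φ := Subgroup.subset_closure ⟨c, h⟩

theorem exists_dot_ne {φ : Fin N → k} (hφ : φ ≠ 0) : ∃ r, φ ⬝ᵥ r ≠ 0 := by
  obtain ⟨i, hi⟩ := Function.ne_iff.1 hφ
  exact ⟨Pi.single i 1, by simpa using hi⟩

theorem IsTv.ne_one {p φ : Fin N → k} (hp : p ≠ 0) (hφ : φ ≠ 0) {c : k} (hc : c ≠ 0)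
    {g : SpecialLinearGroup (Fin N) k} (h : IsTv p φ c g) : g ≠ 1 := by
  rintro rfl
  obtain ⟨r, hr⟩ := exists_dot_ne hφ
  have h1 := h r
  rw [mat_one_mulVec] at h1
  have h2 : (c * (φ ⬝ᵥ r)) • p = 0 := by
    have := h1.symm
    rwa [add_eq_left] at this
  exact smul_ne_zero (mul_ne_zero hc hr) hp h2

theorem IsTv.param_ne {p φ : Fin N → k} {c : k}
    {g : SpecialLinearGroup (Fin N) k} (h : IsTv p φ c g) (hg : g ≠ 1) : c ≠ 0 := by
  rintro rfl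
  exact hg (h.ext (IsTv.one p φ))

theorem IsTv.conj {p φ p' φ' : Fin N → k} {c : k} {t : SpecialLinearGroup (Fin N) k}
    (h : IsTv p φ c t) {g : SpecialLinearGroup (Fin N) k} (hg1 : mat g *ᵥ p = p')
    (hg2 : ∀ v, φ' ⬝ᵥ (mat g *ᵥ v) = φ ⬝ᵥ v) : IsTv p' φ' c (g * t * g⁻¹) := by
  intro v
  rw [mat_mul_mulVec, mat_mul_mulVec, h, Matrix.mulVec_add, Matrix.mulVec_smul,
    mat_mulVec_inv, hg1, ← hg2, mat_mulVec_inv]

theorem conjBy_T {p φ p' φ' : Fin N → k} (h0 : φ ⬝ᵥ p = 0)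
    {g : SpecialLinearGroup (Fin N) k} (hg1 : mat g *ᵥ p = p')
    (hg2 : ∀ v, φ' ⬝ᵥ (mat g *ᵥ v) = φ ⬝ᵥ v) : conjBy (T p φ) g = T p' φ' := by
  have h0' : φ' ⬝ᵥ p' = 0 := by rw [← hg1, hg2, h0]
  ext x
  rw [mem_conjBy, mem_T h0, mem_T h0']
  constructor
  · rintro ⟨c, hc⟩
    refine ⟨c, ?_⟩
    have := hc.conj hg1 hg2
    have e : g * (g⁻¹ * x * g) * g⁻¹ = x := by group
    rwa [e] at this
  · rintro ⟨c, hc⟩
    refine ⟨c, ?_⟩
    have := hc.conj (g := g⁻¹) (p' := p) (φ' := φ) (by rw [← hg1, mat_inv_mulVec])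
      (fun v => by rw [← hg2, mat_mulVec_inv])
    rwa [inv_inv] at this

theorem IsTv.comm {p φ p' φ' : Fin N → k} (h1 : φ ⬝ᵥ p' = 0) (h2 : φ' ⬝ᵥ p = 0) {c d : k}
    {g g' : SpecialLinearGroup (Fin N) k} (h : IsTv p φ c g) (h' : IsTv p' φ' d g') :
    g * g' = g' * g := by
  apply sl_ext
  intro v
  rw [mat_mul_mulVec, mat_mul_mulVec, h', h, h, h']
  simp only [dotProduct_add, dotProduct_smul, h1, h2]
  module

theorem isTv_smul {p φ : Fin N → k} {a b c : k} {g : SpecialLinearGroup (Fin N) k} :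
    IsTv (a • p) (b • φ) c g ↔ IsTv p φ (c * a * b) g := by
  have key : ∀ v, v + (c * ((b • φ) ⬝ᵥ v)) • (a • p) = v + (c * a * b * (φ ⬝ᵥ v)) • p := by
    intro v
    rw [smul_dotProduct]
    module
  constructor
  · intro h v
    rw [h v, key]
  · intro h v
    rw [h v, key]

theorem T_smul {p φ : Fin N → k} (h0 : φ ⬝ᵥ p = 0) {a b : k} (ha : a ≠ 0) (hb : b ≠ 0) :
    T (a • p) (b • φ) = T p φ := by
  have h0' : (b • φ) ⬝ᵥ (a • p) = 0 := by
    rw [smul_dotProduct, dotProduct_smul, h0]; simp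
  ext x
  rw [mem_T h0, mem_T h0']
  constructor
  · rintro ⟨c, hc⟩
    exact ⟨_, isTv_smul.1 hc⟩
  · rintro ⟨c, hc⟩
    refine ⟨c / (a * b), isTv_smul.2 ?_⟩
    have : c / (a * b) * a * b = c := by field_simp
    rwa [this]

theorem commutator_T {p φ p' φ' : Fin N → k} (h0 : φ ⬝ᵥ p = 0) (h0' : φ' ⬝ᵥ p' = 0)
    (h1 : φ ⬝ᵥ p' = 0) (h2 : φ' ⬝ᵥ p = 0) : ⁅T p φ, T p' φ'⁆ = ⊥ := by
  rw [Subgroup.commutator_eq_bot_iff_le_centralizer]
  intro x hx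
  obtain ⟨c, hc⟩ := (mem_T h0).1 hx
  rw [Subgroup.mem_centralizer_iff]
  intro y hy
  obtain ⟨d, hd⟩ := (mem_T h0').1 hy
  exact (hc.comm h1 h2 hd).symm

theorem isMulCommutative_T {p φ : Fin N → k} (h0 : φ ⬝ᵥ p = 0) : IsMulCommutative (T p φ) := by
  refine ⟨⟨?_⟩⟩
  rintro ⟨a, ha⟩ ⟨b, hb⟩
  obtain ⟨s, hs⟩ := (mem_T h0).1 ha
  obtain ⟨t, ht⟩ := (mem_T h0).1 hb
  apply Subtype.ext
  exact hs.comm h0 h0 ht

theorem T_ne_bot {p φ : Fin N → k} (hp : p ≠ 0) (hφ : φ ≠ 0) (h0 : φ ⬝ᵥ p = 0) : T p φ ≠ ⊥ := by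
  intro h
  have h1 : tv p φ h0 1 ∈ T p φ := (isTv_tv p φ h0 1).mem
  rw [h, Subgroup.mem_bot] at h1
  exact (isTv_tv p φ h0 1).ne_one hp hφ one_ne_zero h1


/-- The data of a plane `⟨e, d⟩` with a dual pair of functionals. -/
structure Dat (k : Type*) [Field k] (N : ℕ) where
  e : Fin N → k
  d : Fin N → k
  ε : Fin N → k
  η : Fin N → k
  hεe : ε ⬝ᵥ e = 1
  hεd : ε ⬝ᵥ d = 0
  hηe : η ⬝ᵥ e = 0
  hηd : η ⬝ᵥ d = 1

namespace Dat

variable (D : Dat k N)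

/-- The action of `M ∈ SL₂(k)` on the plane `⟨e, d⟩`, extended by the identity. -/
def LM (M : SpecialLinearGroup (Fin 2) k) : (Fin N → k) →ₗ[k] (Fin N → k) where
  toFun v := v + ((M 0 0 - 1) * (D.ε ⬝ᵥ v) + M 0 1 * (D.η ⬝ᵥ v)) • D.e +
    (M 1 0 * (D.ε ⬝ᵥ v) + (M 1 1 - 1) * (D.η ⬝ᵥ v)) • D.d
  map_add' u v := by
    simp only [dotProduct_add]
    module
  map_smul' c v := by
    simp only [dotProduct_smul, RingHom.id_apply]
    module

theorem LM_apply (M : SpecialLinearGroup (Fin 2) k) (v : Fin N → k) :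
    D.LM M v = v + ((M 0 0 - 1) * (D.ε ⬝ᵥ v) + M 0 1 * (D.η ⬝ᵥ v)) • D.e +
    (M 1 0 * (D.ε ⬝ᵥ v) + (M 1 1 - 1) * (D.η ⬝ᵥ v)) • D.d := rfl

theorem LM_mul (M M' : SpecialLinearGroup (Fin 2) k) (v : Fin N → k) :
    D.LM (M * M') v = D.LM M (D.LM M' v) := by
  simp only [LM_apply, dotProduct_add, dotProduct_smul, D.hεe, D.hεd, D.hηe, D.hηd, SL2.mul_entry,
    smul_eq_mul]
  module

theorem LM_up (t : k) (v : Fin N → k) :
    D.LM (SL2.up t) v = v + (t * (D.η ⬝ᵥ v)) • D.e := by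
  rw [LM_apply]
  simp only [SL2.up_00, SL2.up_01, SL2.up_10, SL2.up_11]
  module

theorem LM_lo (t : k) (v : Fin N → k) :
    D.LM (SL2.lo t) v = v + (t * (D.ε ⬝ᵥ v)) • D.d := by
  rw [LM_apply]
  simp only [SL2.lo_00, SL2.lo_01, SL2.lo_10, SL2.lo_11]
  module

theorem LM_one (v : Fin N → k) : D.LM 1 v = v := by
  rw [← SL2.up_zero, LM_up]
  simp

/-- the matrix-valued homomorphism -/
noncomputable def phi0 : SpecialLinearGroup (Fin 2) k →* Matrix (Fin N) (Fin N) k where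
  toFun M := LinearMap.toMatrix' (D.LM M)
  map_one' := by
    rw [Matrix.ext_iff_mulVec]
    intro v
    rw [LinearMap.toMatrix'_mulVec, LM_one, Matrix.one_mulVec]
  map_mul' M M' := by
    rw [Matrix.ext_iff_mulVec]
    intro v
    rw [← Matrix.mulVec_mulVec, LinearMap.toMatrix'_mulVec, LinearMap.toMatrix'_mulVec,
      LinearMap.toMatrix'_mulVec, LM_mul]

theorem phi0_mulVec (M : SpecialLinearGroup (Fin 2) k) (v : Fin N → k) :
    D.phi0 M *ᵥ v = D.LM M v := LinearMap.toMatrix'_mulVec _ _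

theorem phi0_det (M : SpecialLinearGroup (Fin 2) k) : (D.phi0 M).det = 1 := by
  have h1 : lowerUnipotentSL2 k ⊔ upperUnipotentSL2 k ≤
      (Matrix.detMonoidHom.comp D.phi0).eqLocus 1 := by
    refine sup_le ?_ ?_
    · intro x hx
      obtain ⟨t, rfl⟩ := SL2.mem_lower_iff.1 hx
      change (D.phi0 (SL2.lo t)).det = 1
      have : D.phi0 (SL2.lo t) = mat (tv D.d D.ε D.hεd t) := by
        rw [Matrix.ext_iff_mulVec]
        intro v
        rw [phi0_mulVec, LM_lo, isTv_tv]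
      rw [this]
      exact (tv D.d D.ε D.hεd t).2
    · intro x hx
      obtain ⟨t, rfl⟩ := SL2.mem_upper_iff.1 hx
      change (D.phi0 (SL2.up t)).det = 1
      have : D.phi0 (SL2.up t) = mat (tv D.e D.η D.hηe t) := by
        rw [Matrix.ext_iff_mulVec]
        intro v
        rw [phi0_mulVec, LM_up, isTv_tv]
      rw [this]
      exact (tv D.e D.η D.hηe t).2
  rw [SL2.sup_eq_top] at h1
  exact h1 (Subgroup.mem_top M)

/-- the embedding of `SL₂(k)` in `SL_N(k)`. -/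
noncomputable def phi : SpecialLinearGroup (Fin 2) k →* SpecialLinearGroup (Fin N) k :=
  MonoidHom.mk' (fun M => ⟨D.phi0 M, D.phi0_det M⟩) (by
    intro M M'
    apply Subtype.ext
    exact D.phi0.map_mul M M')

theorem phi_mulVec (M : SpecialLinearGroup (Fin 2) k) (v : Fin N → k) :
    mat (D.phi M) *ᵥ v = D.LM M v := D.phi0_mulVec M v

theorem phi_up (t : k) : IsTv D.e D.η t (D.phi (SL2.up t)) := by
  intro v
  rw [phi_mulVec, LM_up]

theorem phi_lo (t : k) : IsTv D.d D.ε t (D.phi (SL2.lo t)) := by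
  intro v
  rw [phi_mulVec, LM_lo]

theorem map_upper : (upperUnipotentSL2 k).map D.phi = T D.e D.η := by
  ext x
  rw [Subgroup.mem_map, mem_T D.hηe]
  constructor
  · rintro ⟨y, hy, rfl⟩
    obtain ⟨t, rfl⟩ := SL2.mem_upper_iff.1 hy
    exact ⟨_, D.phi_up t⟩
  · rintro ⟨c, hc⟩
    exact ⟨SL2.up c, SL2.up_mem _, (D.phi_up c).ext hc⟩

theorem map_lower : (lowerUnipotentSL2 k).map D.phi = T D.d D.ε := by
  ext x
  rw [Subgroup.mem_map, mem_T D.hεd]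
  constructor
  · rintro ⟨y, hy, rfl⟩
    obtain ⟨t, rfl⟩ := SL2.mem_lower_iff.1 hy
    exact ⟨_, D.phi_lo t⟩
  · rintro ⟨c, hc⟩
    exact ⟨SL2.lo c, SL2.lo_mem _, (D.phi_lo c).ext hc⟩

theorem phi_injective : Function.Injective D.phi := by
  rw [injective_iff_map_eq_one]
  intro M hM
  have h1 := D.phi_mulVec M D.e
  have h2 := D.phi_mulVec M D.d
  rw [hM, mat_one_mulVec, LM_apply] at h1 h2
  simp only [D.hεe, D.hεd, D.hηe, D.hηd] at h1 h2
  have a1 := congrArg (fun x => D.ε ⬝ᵥ x) h1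
  have a2 := congrArg (fun x => D.η ⬝ᵥ x) h1
  have a3 := congrArg (fun x => D.ε ⬝ᵥ x) h2
  have a4 := congrArg (fun x => D.η ⬝ᵥ x) h2
  simp only [dotProduct_add, dotProduct_smul, D.hεe, D.hεd, D.hηe, D.hηd, smul_eq_mul]
    at a1 a2 a3 a4
  have o00 : (1 : SpecialLinearGroup (Fin 2) k) 0 0 = 1 := by simp
  have o01 : (1 : SpecialLinearGroup (Fin 2) k) 0 1 = 0 := by simp
  have o10 : (1 : SpecialLinearGroup (Fin 2) k) 1 0 = 0 := by simp
  have o11 : (1 : SpecialLinearGroup (Fin 2) k) 1 1 = 1 := by simp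
  apply SL2.ext2
  · rw [o00]
    linear_combination -a1
  · rw [o01]
    linear_combination -a3
  · rw [o10]
    linear_combination -a2
  · rw [o11]
    linear_combination -a4

theorem rankOne : IsRankOnePair (T D.e D.η) (T D.d D.ε) := by
  have h := RankOne.map D.phi (RankOnePair_symm (SL2.isRankOnePair (k := k)))
    (fun h => SL2.isRankOnePair.ne (Subgroup.map_injective D.phi_injective h).symm)
  rwa [map_upper, map_lower] at h

theorem psl2 : IsPSL2PairOver k (T D.e D.η) (T D.d D.ε) := by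
  refine ⟨D.phi, ?_, ?_, D.map_upper, D.map_lower⟩
  · rw [MonoidHom.range_eq_map, ← SL2.sup_eq_top, Subgroup.map_sup, map_upper, map_lower, sup_comm]
  · rw [(MonoidHom.ker_eq_bot_iff _).2 D.phi_injective]
    exact bot_le

end Dat

theorem pair_T {p φ p' φ' : Fin N → k} (h0 : φ ⬝ᵥ p = 0) (h0' : φ' ⬝ᵥ p' = 0)
    (h1 : φ ⬝ᵥ p' ≠ 0) (h2 : φ' ⬝ᵥ p ≠ 0) :
    IsRankOnePair (T p φ) (T p' φ') ∧ IsPSL2PairOver k (T p φ) (T p' φ') := by
  let D : Dat k N :=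
    { e := p, d := p', ε := (φ' ⬝ᵥ p)⁻¹ • φ', η := (φ ⬝ᵥ p')⁻¹ • φ
      hεe := by rw [smul_dotProduct, smul_eq_mul, inv_mul_cancel₀ h2]
      hεd := by rw [smul_dotProduct, h0', smul_zero]
      hηe := by rw [smul_dotProduct, h0, smul_zero]
      hηd := by rw [smul_dotProduct, smul_eq_mul, inv_mul_cancel₀ h1] }
  have r1 := D.rankOne
  have r2 := D.psl2
  have e1 : T D.e D.η = T p φ := by
    have := T_smul h0 (a := 1) (b := (φ ⬝ᵥ p')⁻¹) one_ne_zero (inv_ne_zero h1)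
    rwa [one_smul] at this
  have e2 : T D.d D.ε = T p' φ' := by
    have := T_smul h0' (a := 1) (b := (φ' ⬝ᵥ p)⁻¹) one_ne_zero (inv_ne_zero h2)
    rwa [one_smul] at this
  rw [e1, e2] at r1 r2
  exact ⟨r1, r2⟩

/-- the commutator formula -/
theorem IsTv.commutator {p φ p' φ' : Fin N → k} (h0 : φ ⬝ᵥ p = 0) (h0' : φ' ⬝ᵥ p' = 0)
    (h1 : φ ⬝ᵥ p' = 0) {c d : k} {x y : SpecialLinearGroup (Fin N) k} (hx : IsTv p φ c x)
    (hy : IsTv p' φ' d y) : IsTv p' φ (-(c * d * (φ' ⬝ᵥ p))) (x * y * x⁻¹ * y⁻¹) := by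
  intro v
  rw [mat_mul_mulVec, mat_mul_mulVec, mat_mul_mulVec, hy.inv h0', hx.inv h0, hy, hx]
  simp only [dotProduct_add, dotProduct_smul, h0, h0', h1, smul_eq_mul]
  module


/-- The set of all transvection subgroups attached to incident point-hyperplane pairs. -/
def rootSet' (k : Type*) [Field k] (N : ℕ) : Set (Subgroup (SpecialLinearGroup (Fin N) k)) :=
  {A | ∃ p φ : Fin N → k, p ≠ 0 ∧ φ ≠ 0 ∧ φ ⬝ᵥ p = 0 ∧ A = T p φ}

theorem exists_right {p φ p' φ' : Fin N → k} (h0 : φ ⬝ᵥ p = 0) (h0' : φ' ⬝ᵥ p' = 0)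
    (h1 : φ ⬝ᵥ p' = 0) (h2 : φ' ⬝ᵥ p ≠ 0) {c : k} {x : SpecialLinearGroup (Fin N) k}
    (hx : IsTv p φ c x) (hc : c ≠ 0) {z : SpecialLinearGroup (Fin N) k} (hz : z ∈ T p' φ) :
    ∃ y ∈ T p' φ', x * y * x⁻¹ * y⁻¹ = z := by
  obtain ⟨s, hs⟩ := (mem_T h1).1 hz
  refine ⟨tv p' φ' h0' (-(s / (c * (φ' ⬝ᵥ p)))), (isTv_tv _ _ _ _).mem, ?_⟩
  have := hx.commutator h0 h0' h1 (isTv_tv p' φ' h0' (-(s / (c * (φ' ⬝ᵥ p)))))
  have e : -(c * -(s / (c * (φ' ⬝ᵥ p))) * (φ' ⬝ᵥ p)) = s := by field_simp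
  rw [e] at this
  exact this.ext hs

theorem exists_left {p φ p' φ' : Fin N → k} (h0 : φ ⬝ᵥ p = 0) (h0' : φ' ⬝ᵥ p' = 0)
    (h1 : φ ⬝ᵥ p' = 0) (h2 : φ' ⬝ᵥ p ≠ 0) {d : k} {y : SpecialLinearGroup (Fin N) k}
    (hy : IsTv p' φ' d y) (hd : d ≠ 0) {z : SpecialLinearGroup (Fin N) k} (hz : z ∈ T p' φ) :
    ∃ x ∈ T p φ, x * y * x⁻¹ * y⁻¹ = z := by
  obtain ⟨s, hs⟩ := (mem_T h1).1 hz
  refine ⟨tv p φ h0 (-(s / (d * (φ' ⬝ᵥ p)))), (isTv_tv _ _ _ _).mem, ?_⟩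
  have := (isTv_tv p φ h0 (-(s / (d * (φ' ⬝ᵥ p))))).commutator h0 h0' h1 hy
  have e : -(-(s / (d * (φ' ⬝ᵥ p))) * d * (φ' ⬝ᵥ p)) = s := by field_simp
  rw [e] at this
  exact this.ext hs

theorem commCase {p φ p' φ' : Fin N → k} (hφ : φ ≠ 0) (hp' : p' ≠ 0)
    (h0 : φ ⬝ᵥ p = 0) (h0' : φ' ⬝ᵥ p' = 0)
    (h1 : φ ⬝ᵥ p' = 0) (h2 : φ' ⬝ᵥ p ≠ 0) :
    RootCommutatorCase (rootSet' k N) (T p φ) (T p' φ') := by
  have hle : ∀ x ∈ T p φ, ∀ y ∈ T p' φ', x * y * x⁻¹ * y⁻¹ ∈ T p' φ := by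
    intro x hx y hy
    obtain ⟨c, hc⟩ := (mem_T h0).1 hx
    obtain ⟨d, hd⟩ := (mem_T h0').1 hy
    exact (hc.commutator h0 h0' h1 hd).mem
  have hN : ⁅T p φ, T p' φ'⁆ = T p' φ := by
    apply le_antisymm
    · rw [Subgroup.commutator_le]
      exact hle
    · intro z hz
      obtain ⟨y, hy, rfl⟩ := exists_right h0 h0' h1 h2 (isTv_tv p φ h0 1) one_ne_zero hz
      exact Subgroup.commutator_mem_commutator (isTv_tv p φ h0 1).mem hy
  rw [RootCommutatorCase, hN]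
  refine ⟨⟨p', φ, hp', hφ, h1, rfl⟩, ?_, ?_, ?_⟩
  · intro c hc x hx
    have hcen : T p φ ⊔ T p' φ' ≤ Subgroup.centralizer (T p' φ : Set _) := by
      refine sup_le ?_ ?_
      · intro x hx
        obtain ⟨s, hs⟩ := (mem_T h0).1 hx
        rw [Subgroup.mem_centralizer_iff]
        intro z hz
        obtain ⟨t, ht⟩ := (mem_T h1).1 hz
        exact ht.comm h0 h1 hs
      · intro x hx
        obtain ⟨s, hs⟩ := (mem_T h0').1 hx
        rw [Subgroup.mem_centralizer_iff]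
        intro z hz
        obtain ⟨t, ht⟩ := (mem_T h1).1 hz
        exact ht.comm h1 h0' hs
    exact Subgroup.mem_centralizer_iff.1 (hcen hx) c hc
  · intro a ha ha1
    obtain ⟨c, hc⟩ := (mem_T h0).1 ha
    apply le_antisymm
    · rw [Subgroup.closure_le]
      rintro _ ⟨y, hy, rfl⟩
      exact hle a ha y hy
    · intro z hz
      obtain ⟨y, hy, rfl⟩ := exists_right h0 h0' h1 h2 hc (hc.param_ne ha1) hz
      exact Subgroup.subset_closure ⟨y, hy, rfl⟩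
  · intro b hb hb1
    obtain ⟨d, hd⟩ := (mem_T h0').1 hb
    apply le_antisymm
    · rw [Subgroup.closure_le]
      rintro _ ⟨x, hx, rfl⟩
      exact hle x hx b hb
    · intro z hz
      obtain ⟨x, hx, rfl⟩ := exists_left h0 h0' h1 h2 hd (hd.param_ne hb1) hz
      exact Subgroup.subset_closure ⟨x, hx, rfl⟩

theorem transv_mulVec (i j : Fin N) (c : k) (v : Fin N → k) :
    Matrix.transvection i j c *ᵥ v = v + (c * (Pi.single j 1 ⬝ᵥ v)) • Pi.single i 1 := by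
  rw [Cfsg.Agent.Lib.Helper45.tv_mulVec]
  ext x
  by_cases hx : x = i
  · subst hx
    simp
  · simp [hx]

theorem single_ne_zero' (i : Fin N) : (Pi.single i 1 : Fin N → k) ≠ 0 := by
  intro h
  have := congrFun h i
  simp at this

theorem single_dot_single {i j : Fin N} (h : i ≠ j) :
    (Pi.single i 1 : Fin N → k) ⬝ᵥ Pi.single j 1 = 0 := by
  simp [h]

theorem single_dot_self (i : Fin N) :
    (Pi.single i 1 : Fin N → k) ⬝ᵥ Pi.single i 1 = 1 := by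
  simp

theorem exists_conj {i j : Fin N} (hij : i ≠ j) {p φ : Fin N → k} (hp : p ≠ 0) (hφ : φ ≠ 0)
    (h0 : φ ⬝ᵥ p = 0) :
    ∃ g, T p φ = conjBy (T (Pi.single i 1) (Pi.single j 1)) g := by
  obtain ⟨r, hr⟩ := exists_dot_ne hφ
  have hr0 : r ≠ 0 := by
    rintro rfl
    exact hr (dotProduct_zero _)
  have hpr : ∀ a : k, r ≠ a • p := by
    rintro a rfl
    apply hr
    rw [dotProduct_smul, h0, smul_zero]
  have he01 : ∀ a : k, (Pi.single j 1 : Fin N → k) ≠ a • Pi.single i 1 := by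
    intro a h
    have := congrFun h j
    simp [hij.symm] at this
  obtain ⟨g, a, b, ha, hb, hg0, hg1⟩ := exists_sl_two hp hr0 hpr (single_ne_zero' i)
    (single_ne_zero' j) he01
  obtain ⟨ψ, hψdef⟩ : ∃ ψ, ψ = φ ᵥ* mat g := ⟨_, rfl⟩
  have hψ : ∀ v, ψ ⬝ᵥ v = φ ⬝ᵥ (mat g *ᵥ v) := by
    intro v
    rw [hψdef, Matrix.dotProduct_mulVec]
  obtain ⟨ψ₁, hψ₁def⟩ : ∃ ψ₁, ψ₁ = ψ ⬝ᵥ Pi.single j 1 := ⟨_, rfl⟩
  have hψ₁ : ψ₁ ≠ 0 := by
    rw [hψ₁def, hψ]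
    change φ ⬝ᵥ ((g : Matrix (Fin N) (Fin N) k) *ᵥ Pi.single j 1) ≠ 0
    rw [hg1, dotProduct_smul, smul_eq_mul]
    exact mul_ne_zero hb hr
  have hψ0 : ψ ⬝ᵥ Pi.single i 1 = 0 := by
    rw [hψ]
    change φ ⬝ᵥ ((g : Matrix (Fin N) (Fin N) k) *ᵥ Pi.single i 1) = 0
    rw [hg0, dotProduct_smul, h0, smul_zero]
  obtain ⟨χ, hχdef⟩ : ∃ χ : Fin N → k, χ = (-ψ₁⁻¹) • (ψ - ψ₁ • Pi.single j 1) := ⟨_, rfl⟩
  have hχ : ∀ v, χ ⬝ᵥ v = -ψ₁⁻¹ * (ψ ⬝ᵥ v - ψ₁ * (Pi.single j 1 ⬝ᵥ v)) := by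
    intro v
    rw [hχdef]
    simp only [smul_dotProduct, sub_dotProduct, smul_eq_mul]
  have hχ1 : χ ⬝ᵥ Pi.single j 1 = 0 := by
    rw [hχ, single_dot_self, ← hψ₁def]
    ring
  have hχ0 : χ ⬝ᵥ Pi.single i 1 = 0 := by
    rw [hχ, hψ0, single_dot_single hij.symm]
    ring
  refine ⟨g * tv (Pi.single j 1) χ hχ1 1, ?_⟩
  rw [conjBy_T (p' := a • p) (φ' := ψ₁⁻¹ • φ) (single_dot_single hij.symm), T_smul h0 ha (inv_ne_zero hψ₁)]
  · rw [mat_mul_mulVec, isTv_tv, hχ0]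
    simp only [mul_zero, zero_smul, add_zero]
    exact hg0
  · intro v
    rw [mat_mul_mulVec, smul_dotProduct, ← hψ, isTv_tv, dotProduct_add, dotProduct_smul, ← hψ₁def,
      hχ]
    simp only [smul_eq_mul]
    field_simp
    ring

theorem two_ne {φ φ' : Fin N → k} (hφ : φ ≠ 0) (hφ' : φ' ≠ 0) :
    ∃ r, φ ⬝ᵥ r ≠ 0 ∧ φ' ⬝ᵥ r ≠ 0 := by
  obtain ⟨a, ha⟩ := exists_dot_ne hφ
  obtain ⟨b, hb⟩ := exists_dot_ne hφ'
  by_cases h1 : φ' ⬝ᵥ a = 0
  · by_cases h2 : φ ⬝ᵥ b = 0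
    · refine ⟨a + b, ?_, ?_⟩
      · rw [dotProduct_add, h2, add_zero]; exact ha
      · rw [dotProduct_add, h1, zero_add]; exact hb
    · exact ⟨b, h2, hb⟩
  · exact ⟨a, ha, h1⟩

theorem exists_func {r p φ : Fin N → k} (hp : p ≠ 0) (h0 : φ ⬝ᵥ p = 0) (hr : φ ⬝ᵥ r ≠ 0) :
    ∃ ψ : Fin N → k, ψ ⬝ᵥ r = 0 ∧ ψ ⬝ᵥ p ≠ 0 := by
  obtain ⟨χ, hχ⟩ := exists_dot_ne hp
  rw [dotProduct_comm] at hχ
  refine ⟨χ - ((χ ⬝ᵥ r) / (φ ⬝ᵥ r)) • φ, ?_, ?_⟩
  · rw [sub_dotProduct, smul_dotProduct, smul_eq_mul]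
    field_simp
    ring
  · rw [sub_dotProduct, smul_dotProduct, h0, smul_zero, sub_zero]
    exact hχ

theorem connected' : IsConnectedFamily (FAdj (rootSet' k N)) (rootSet' k N) := by
  rintro _ ⟨p, φ, hp, hφ, h0, rfl⟩ _ ⟨p', φ', hp', hφ', h0', rfl⟩
  obtain ⟨r, hr1, hr2⟩ := two_ne hφ hφ'
  have hr0 : r ≠ 0 := by
    rintro rfl
    exact hr1 (dotProduct_zero _)
  obtain ⟨ψ₁, h11, h12⟩ := exists_func hp h0 hr1
  obtain ⟨ψ₂, h21, h22⟩ := exists_func hp' h0' hr2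
  obtain ⟨ψ, hψr, hψp, hψp'⟩ : ∃ ψ : Fin N → k, ψ ⬝ᵥ r = 0 ∧ ψ ⬝ᵥ p ≠ 0 ∧ ψ ⬝ᵥ p' ≠ 0 := by
    by_cases h1 : ψ₁ ⬝ᵥ p' = 0
    · by_cases h2 : ψ₂ ⬝ᵥ p = 0
      · refine ⟨ψ₁ + ψ₂, ?_, ?_, ?_⟩
        · rw [add_dotProduct, h11, h21, add_zero]
        · rw [add_dotProduct, h2, add_zero]; exact h12
        · rw [add_dotProduct, h1, zero_add]; exact h22
      · exact ⟨ψ₂, h21, h2, h22⟩
    · exact ⟨ψ₁, h11, h12, h1⟩
  have hψ0 : ψ ≠ 0 := by
    rintro rfl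
    exact hψp (zero_dotProduct _)
  exact Relation.ReflTransGen.trans
    (Relation.ReflTransGen.single ⟨⟨p, φ, hp, hφ, h0, rfl⟩, ⟨r, ψ, hr0, hψ0, hψr, rfl⟩,
      (pair_T h0 hψr hr1 hψp).1⟩)
    (Relation.ReflTransGen.single ⟨⟨r, ψ, hr0, hψ0, hψr, rfl⟩, ⟨p', φ', hp', hφ', h0', rfl⟩,
      (pair_T hψr h0' hψp' hr2).1⟩)

theorem conj_mem' {A : Subgroup (SpecialLinearGroup (Fin N) k)} (hA : A ∈ rootSet' k N)
    (g : SpecialLinearGroup (Fin N) k) : conjBy A g ∈ rootSet' k N := by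
  obtain ⟨p, φ, hp, hφ, h0, rfl⟩ := hA
  have hg2 : ∀ v, (φ ᵥ* mat g⁻¹) ⬝ᵥ (mat g *ᵥ v) = φ ⬝ᵥ v := by
    intro v
    rw [← Matrix.dotProduct_mulVec, mat_inv_mulVec]
  refine ⟨mat g *ᵥ p, φ ᵥ* mat g⁻¹, mat_mulVec_ne_zero g hp, ?_, ?_, conjBy_T h0 rfl hg2⟩
  · intro h
    obtain ⟨r, hr⟩ := exists_dot_ne hφ
    apply hr
    rw [← hg2, h, zero_dotProduct]
  · rw [hg2, h0]

theorem isRootSubgroupSet' (hN : 2 ≤ N) : IsRootSubgroupSet (rootSet' k N) where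
  commutative := by
    rintro _ ⟨p, φ, hp, hφ, h0, rfl⟩
    exact isMulCommutative_T h0
  ne_bot := by
    rintro _ ⟨p, φ, hp, hφ, h0, rfl⟩
    exact T_ne_bot hp hφ h0
  generates := by
    have : Nontrivial (Fin N) := Fin.nontrivial_iff_two_le.2 hN
    apply Cfsg.Agent.Lib.Helper45.eq_top_of_transvections
    intro i j hij c
    have h1 : T (Pi.single i 1) (Pi.single j 1) ≤ ⨆ A ∈ rootSet' k N, A :=
      RootTransfer.le_gen ⟨Pi.single i 1, Pi.single j 1, single_ne_zero' i, single_ne_zero' j,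
        single_dot_single hij.symm, rfl⟩
    apply h1
    have : IsTv (Pi.single i 1) (Pi.single j 1) c (SpecialLinearGroup.transvection hij c) :=
      fun v => transv_mulVec i j c v
    exact this.mem
  conj_mem := fun A hA g => conj_mem' hA g
  pair := by
    rintro _ ⟨p, φ, hp, hφ, h0, rfl⟩ _ ⟨p', φ', hp', hφ', h0', rfl⟩
    by_cases h1 : φ ⬝ᵥ p' = 0
    · by_cases h2 : φ' ⬝ᵥ p = 0
      · exact Or.inl (commutator_T h0 h0' h1 h2)
      · exact Or.inr (Or.inr (commCase hφ hp' h0 h0' h1 h2))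
    · by_cases h2 : φ' ⬝ᵥ p = 0
      · exact Or.inr (Or.inr (Root.CommCase.symm (commCase hφ' hp h0' h0 h2 h1)))
      · exact Or.inr (Or.inl (pair_T h0 h0' h1 h2).1)

theorem isKRoot' (hN : 2 ≤ N) : IsKRootSubgroupSet k (rootSet' k N) := by
  have hS := isRootSubgroupSet' (k := k) hN
  refine ⟨hS, ?_⟩
  rintro _ ⟨p, φ, hp, hφ, h0, rfl⟩ _ ⟨p', φ', hp', hφ', h0', rfl⟩ hr
  by_cases h1 : φ ⬝ᵥ p' = 0
  · by_cases h2 : φ' ⬝ᵥ p = 0
    · exact absurd hr (RootTransfer.not_rankOne_of_comm (commutator_T h0 h0' h1 h2))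
    · exact absurd (commCase hφ hp' h0 h0' h1 h2) (SympRoot.not_commutatorCase_of_rankOne hS
        ⟨p, φ, hp, hφ, h0, rfl⟩ ⟨p', φ', hp', hφ', h0', rfl⟩ hr)
  · by_cases h2 : φ' ⬝ᵥ p = 0
    · exact absurd (commCase hφ' hp h0' h0 h2 h1) (SympRoot.not_commutatorCase_of_rankOne hS
        ⟨p', φ', hp', hφ', h0', rfl⟩ ⟨p, φ, hp, hφ, h0, rfl⟩ (RankOnePair_symm hr))
    · exact (pair_T h0 h0' h1 h2).2


/-- The conjugates of the elementary root subgroup. -/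
def rootSet (k : Type*) [Field k] (n : ℕ) :
    Set (Subgroup (SpecialLinearGroup (Fin (n + 3)) k)) :=
  {A | ∃ g : SpecialLinearGroup (Fin (n + 3)) k,
    A = conjBy (Subgroup.closure {t : SpecialLinearGroup (Fin (n + 3)) k |
      ∃ c : k, (t : Matrix (Fin (n + 3)) (Fin (n + 3)) k) = Matrix.transvection 0 1 c}) g}

theorem T0_eq (n : ℕ) : Subgroup.closure {t : SpecialLinearGroup (Fin (n + 3)) k |
      ∃ c : k, (t : Matrix (Fin (n + 3)) (Fin (n + 3)) k) = Matrix.transvection 0 1 c} =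
    T (Pi.single 0 1) (Pi.single 1 1) := by
  unfold T
  congr 1
  ext t
  constructor
  · rintro ⟨c, hc⟩
    refine ⟨c, fun v => ?_⟩
    change (t : Matrix (Fin (n + 3)) (Fin (n + 3)) k) *ᵥ v = _
    rw [hc, transv_mulVec]
  · rintro ⟨c, hc⟩
    refine ⟨c, ?_⟩
    rw [Matrix.ext_iff_mulVec]
    intro v
    rw [transv_mulVec]
    exact hc v

theorem rootSet_eq (n : ℕ) : rootSet k n = rootSet' k (n + 3) := by
  have h01 : (0 : Fin (n + 3)) ≠ 1 := by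
    intro h
    have := congrArg Fin.val h
    simp at this
  ext A
  constructor
  · rintro ⟨g, rfl⟩
    rw [T0_eq]
    exact conj_mem' ⟨Pi.single 0 1, Pi.single 1 1, single_ne_zero' 0, single_ne_zero' 1,
      single_dot_single h01.symm, rfl⟩ g
  · rintro ⟨p, φ, hp, hφ, h0, rfl⟩
    obtain ⟨g, hg⟩ := exists_conj h01 hp hφ h0
    refine ⟨g, ?_⟩
    rw [T0_eq]
    exact hg

theorem T_ne_of {p φ φ' r : Fin N → k} (hp : p ≠ 0) (h0 : φ ⬝ᵥ p = 0) (h0' : φ' ⬝ᵥ p = 0)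
    (h1 : φ ⬝ᵥ r ≠ 0) (h2 : φ' ⬝ᵥ r = 0) : T p φ ≠ T p φ' := by
  intro h
  have h3 : tv p φ h0 1 ∈ T p φ' := h ▸ (isTv_tv p φ h0 1).mem
  obtain ⟨c, hc⟩ := (mem_T h0').1 h3
  have h4 := hc r
  rw [isTv_tv p φ h0 1 r, h2] at h4
  have h5 : (1 * (φ ⬝ᵥ r)) • p = 0 := by
    have : r + (1 * (φ ⬝ᵥ r)) • p = r + 0 := by
      rw [h4]; simp
    exact add_left_cancel this
  exact smul_ne_zero (mul_ne_zero one_ne_zero h1) hp h5

theorem isNondegenerate' (n : ℕ) : IsNondegenerateRootSet (rootSet' k (n + 3)) := by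
  have h01 : (0 : Fin (n + 3)) ≠ 1 := by
    intro h
    have := congrArg Fin.val h
    simp at this
  have h02 : (0 : Fin (n + 3)) ≠ 2 := by
    intro h
    have := congrArg Fin.val h
    simp at this
    rw [Nat.mod_eq_of_lt (by omega)] at this
    omega
  have h12 : (1 : Fin (n + 3)) ≠ 2 := by
    intro h
    have := congrArg Fin.val h
    simp at this
    rw [Nat.mod_eq_of_lt (by omega)] at this
    omega
  have mem : ∀ {i j : Fin (n + 3)}, i ≠ j →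
      T (Pi.single i 1 : Fin (n + 3) → k) (Pi.single j 1) ∈ rootSet' k (n + 3) := fun {i j} hij =>
    ⟨Pi.single i 1, Pi.single j 1, single_ne_zero' i, single_ne_zero' j,
      single_dot_single hij.symm, rfl⟩
  refine ⟨⟨_, mem h01, _, mem h02, ?_, ?_⟩, ⟨_, mem h01, _, mem h01.symm, ?_⟩,
    ⟨_, mem h12, _, mem h01, ?_⟩⟩
  · exact T_ne_of (r := Pi.single 1 1) (single_ne_zero' 0) (single_dot_single h01.symm)
      (single_dot_single h02.symm) (by rw [single_dot_self]; exact one_ne_zero)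
      (single_dot_single h12.symm)
  · exact commutator_T (single_dot_single h01.symm) (single_dot_single h02.symm)
      (single_dot_single h01.symm) (single_dot_single h02.symm)
  · exact (pair_T (single_dot_single h01.symm) (single_dot_single h01)
      (by rw [single_dot_self]; exact one_ne_zero) (by rw [single_dot_self]; exact one_ne_zero)).1
  · exact commCase (single_ne_zero' 2) (single_ne_zero' 0) (single_dot_single h12.symm)
      (single_dot_single h01.symm) (single_dot_single h02.symm)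
      (by rw [single_dot_self]; exact one_ne_zero)

theorem main (k : Type*) [Field k] (n : ℕ) :
    IsRootSubgroupClass (rootSet k n) ∧ IsNondegenerateRootSet (rootSet k n) ∧
    IsKRootSubgroupSet k (rootSet k n) ∧ IsConnectedFamily (FAdj (rootSet k n)) (rootSet k n) := by
  have hconj : IsConjClassOfSubgroups (rootSet k n) := by
    refine ⟨⟨_, 1, rfl⟩, ?_⟩
    rintro _ ⟨g, rfl⟩ _ ⟨g', rfl⟩
    refine ⟨g' * g⁻¹, ?_⟩
    rw [conjBy_conjBy, inv_mul_cancel_right]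
  rw [rootSet_eq] at hconj ⊢
  exact ⟨⟨isRootSubgroupSet' (by omega), hconj⟩, isNondegenerate' n, isKRoot' (by omega),
    connected'⟩

end Cfsg.Agent.Lib.Helper17.SLRoot
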