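import Cfsg.Agent.Lib.Helper97.SUParab
import Cfsg.Agent.Lib.Helper97.UGeo

set_option autoImplicit false

/-! General lemmas on finite unitary spaces: transitivity of the transvection group on vectors of
a given norm, vectors with prescribed Gram matrix, restriction to non-degenerate subspaces. -/

namespace Cfsg.Agent.Lib.Helper17.SUNondeg

open Module Cfsg.Agent.Lib.Helper95 Cfsg.Agent.Lib.Helper97

section gen

variable {F V : Type*} [Field F] [Finite F] [AddCommGroup V] [Module F V] [FiniteDimensional F V]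
variable {σ : F ≃+* F} {f : V → V → F} (h : UF σ f)
include h

omit [Finite F] [FiniteDimensional F V] in
/-- adjust the norm along an isotropic vector -/
lemma exists_adjust {y z : V} (hz : f z z = 0) (hzy : f z y ≠ 0) (c : F) (hc : σ c = c) :
    ∃ m : F, f (y + m • z) (y + m • z) = c := by
  obtain ⟨l, hl⟩ := exists_trace σ h.ne_refl h.involutive (c - f y y)
    (by rw [map_sub, hc, h.self_fixed])
  refine ⟨l / f z y, ?_⟩
  rw [h.expand, hz, div_mul_cancel₀ _ hzy]
  linear_combination hl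

lemma exists_TGrp_indep (hn : 4 ≤ finrank F V) {x x' : V} (hxx : f x x = f x' x')
    (h1 : x ∉ Submodule.span F {x'}) (h2 : x' ∉ Submodule.span F {x}) :
    ∃ t ∈ TGrp σ f, t x = x' := by
  obtain ⟨s, hs0, hs⟩ := exists_skew σ h.ne_refl h.involutive
  obtain ⟨κ, hκ⟩ : ∃ κ, κ = f x x - s - f x x' := ⟨_, rfl⟩
  obtain ⟨c, hc⟩ : ∃ c, c = σ (κ / s) := ⟨_, rfl⟩
  have hσc : σ c = κ / s := by rw [hc, h.involutive]
  have hab : x ∉ Submodule.span F {x' + (-c) • x} := by
    intro hcon
    obtain ⟨d, hd⟩ := Submodule.mem_span_singleton.1 hcon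
    have hd0 : d ≠ 0 := by
      rintro rfl
      rw [zero_smul] at hd
      apply h1
      rw [← hd]
      exact Submodule.zero_mem _
    apply h2
    rw [Submodule.mem_span_singleton]
    refine ⟨(1 + d * c) / d, ?_⟩
    have e : d • x' = (1 + d * c) • x := by
      linear_combination (norm := module) hd
    calc ((1 + d * c) / d) • x = d⁻¹ • ((1 + d * c) • x) := by rw [smul_smul]; congr 1; field_simp
      _ = x' := by rw [← e, smul_smul, inv_mul_cancel₀ hd0, one_smul]
  obtain ⟨w, hww, hwb, hwx⟩ := h.exists_iso_val hn hab s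
  have hwx' : f w x' = κ := by
    rw [h.add_right, h.smul_right, hwx, map_neg, hσc] at hwb
    have : κ / s * s = κ := by field_simp
    linear_combination hwb + this
  have hxw : f x w = -s := by rw [h.herm, hwx, hs]
  have hx'w : f x' w = σ κ := by rw [h.herm, hwx']
  have hyy : f (x + w) (x + w) = f x x := by
    rw [h.add_left, h.add_right, h.add_right, hww, hwx, hxw]; ring
  obtain ⟨t₁, ht₁, ht₁x⟩ := exists_TGrp_map h (x := x) (w := x + w) (s := -s) hyy.symm
    (by rw [h.add_right, hxw]) (by rw [map_neg, hs]) (neg_ne_zero.2 hs0)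
  obtain ⟨t₂, ht₂, ht₂x⟩ := exists_TGrp_map h (x := x') (w := x + w) (s := s)
    (by rw [hyy, hxx])
    (by rw [h.add_right, hx'w, hκ, map_sub, map_sub, h.self_fixed, hs, ← h.herm x' x, hxx]; ring)
    hs hs0
  refine ⟨t₂⁻¹ * t₁, Subgroup.mul_mem _ (Subgroup.inv_mem _ ht₂) ht₁, ?_⟩
  rw [LinearEquiv.mul_apply, ht₁x, ← ht₂x, ← LinearEquiv.mul_apply, inv_mul_cancel]
  rfl

omit h [Finite F] [FiniteDimensional F V] in
lemma indep_of {x u : V} (hx : x ≠ 0) (hu : u ∉ Submodule.span F {x}) {d : F} (hd : d ≠ 0) :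
    d • x ∉ Submodule.span F {x + u} ∧ x + u ∉ Submodule.span F {d • x} := by
  constructor
  · intro hcon
    obtain ⟨c, hc⟩ := Submodule.mem_span_singleton.1 hcon
    have hc0 : c ≠ 0 := by
      rintro rfl
      rw [zero_smul] at hc
      exact smul_ne_zero hd hx hc.symm
    apply hu
    rw [Submodule.mem_span_singleton]
    refine ⟨(d - c) / c, ?_⟩
    have e : c • u = (d - c) • x := by
      linear_combination (norm := module) hc
    calc ((d - c) / c) • x = c⁻¹ • ((d - c) • x) := by rw [smul_smul]; congr 1; field_simp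
      _ = u := by rw [← e, smul_smul, inv_mul_cancel₀ hc0, one_smul]
  · intro hcon
    obtain ⟨c, hc⟩ := Submodule.mem_span_singleton.1 hcon
    apply hu
    rw [Submodule.mem_span_singleton]
    refine ⟨c * d - 1, ?_⟩
    linear_combination (norm := module) hc

/-- The transvection group is transitive on the non-zero vectors of a given norm. -/
theorem exists_TGrp_trans (hn : 6 ≤ finrank F V) {x x' : V} (hx : x ≠ 0) (hx' : x' ≠ 0)
    (hxx : f x x = f x' x') : ∃ t ∈ TGrp σ f, t x = x' := by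
  by_cases h2 : x' ∈ Submodule.span F {x}
  · obtain ⟨d, hd⟩ := Submodule.mem_span_singleton.1 h2
    have hd0 : d ≠ 0 := by
      rintro rfl
      rw [zero_smul] at hd
      exact hx' hd.symm
    obtain ⟨u, huu, hux, -, hu, -⟩ := h.exists_iso_perp2 hn x x
    have hxu : f x u = 0 := by rw [h.herm, hux, map_zero]
    have hyy : f (x + u) (x + u) = f x x := by
      rw [h.add_left, h.add_right, h.add_right, huu, hux, hxu]; ring
    have i1 := indep_of hx hu (d := 1) one_ne_zero
    rw [one_smul] at i1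
    have i2 := indep_of hx hu hd0
    rw [hd] at i2
    obtain ⟨t₁, ht₁, ht₁x⟩ := exists_TGrp_indep h (by omega) hyy.symm i1.1 i1.2
    obtain ⟨t₂, ht₂, ht₂x⟩ := exists_TGrp_indep h (by omega) (hyy.trans hxx) i2.2 i2.1
    refine ⟨t₂ * t₁, Subgroup.mul_mem _ ht₂ ht₁, ?_⟩
    rw [LinearEquiv.mul_apply, ht₁x, ht₂x]
  · have h1 : x ∉ Submodule.span F {x'} := by
      intro hcon
      obtain ⟨d, hd⟩ := Submodule.mem_span_singleton.1 hcon
      have hd0 : d ≠ 0 := by
        rintro rfl
        rw [zero_smul] at hd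
        exact hx hd.symm
      apply h2
      rw [Submodule.mem_span_singleton]
      exact ⟨d⁻¹, by rw [← hd, smul_smul, inv_mul_cancel₀ hd0, one_smul]⟩
    exact exists_TGrp_indep h (by omega) hxx h1 h2

/-- a hyperbolic pair -/
lemma exists_hyp (hn : 2 ≤ finrank F V) : ∃ e e' : V, f e e = 0 ∧ f e' e' = 0 ∧ f e e' = 1 := by
  obtain ⟨e, he0, hee, -⟩ := h.hform.exists_iso_perp
    (fun a ha => exists_norm σ h.ne_refl h.involutive a ha) (k := 0) ![] (by omega)
  obtain ⟨y, hy⟩ := h.nondeg e he0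
  have hey : f e y ≠ 0 := ne_zero_comm' h hy
  obtain ⟨m, hm⟩ := exists_adjust h hee hey 0 (map_zero σ)
  have h1 : f e (y + m • e) = f e y := by rw [h.add_right, h.smul_right, hee]; ring
  refine ⟨e, (σ (f e y))⁻¹ • (y + m • e), hee, ?_, ?_⟩
  · rw [h.smul_left, h.smul_right, hm]; ring
  · rw [h.smul_right, h1, map_inv₀, h.involutive, inv_mul_cancel₀ hey]

/-- a non-zero vector of prescribed norm -/
lemma exists_norm_vec (hn : 2 ≤ finrank F V) (ν : F) (hν : σ ν = ν) :
    ∃ x : V, x ≠ 0 ∧ f x x = ν := by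
  obtain ⟨e, e', hee, he'e', hee'⟩ := exists_hyp h hn
  obtain ⟨m, hm⟩ := exists_adjust h hee (y := e') (by rw [hee']; exact one_ne_zero) ν hν
  refine ⟨e' + m • e, ?_, hm⟩
  intro h0
  have : f e (e' + m • e) = 1 := by rw [h.add_right, h.smul_right, hee, hee']; ring
  rw [h0, h.zero_right] at this
  exact zero_ne_one this

/-- two vectors with prescribed Gram matrix -/
lemma exists_gram (hn : 4 ≤ finrank F V) (ν₁ ν₂ κ : F) (h1 : σ ν₁ = ν₁) (h2 : σ ν₂ = ν₂) :
    ∃ x₁ x₂ : V, f x₁ x₁ = ν₁ ∧ f x₂ x₂ = ν₂ ∧ f x₁ x₂ = κ ∧ x₁ ≠ 0 ∧ x₂ ≠ 0 ∧ x₁ + x₂ ≠ 0 := by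
  obtain ⟨e, e', hee, he'e', hee'⟩ := exists_hyp h (by omega)
  have he'e : f e' e = 1 := by rw [h.herm, hee', map_one]
  obtain ⟨z, hz0, hzz, hz⟩ := h.hform.exists_iso_perp
    (fun a ha => exists_norm σ h.ne_refl h.involutive a ha) (k := 2) ![e, e'] (by omega)
  have hze : f z e = 0 := hz 0
  have hze' : f z e' = 0 := hz 1
  have hez : f e z = 0 := eq_zero_comm' h hze
  have he'z : f e' z = 0 := eq_zero_comm' h hze'
  obtain ⟨y, hy⟩ := h.nondeg z hz0
  obtain ⟨y₂, hy₂⟩ : ∃ y₂, y₂ = y + (-f y e') • e + (-f y e) • e' := ⟨_, rfl⟩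
  have hy₂e : f y₂ e = 0 := by
    rw [hy₂, h.add_left, h.add_left, h.smul_left, h.smul_left, hee, he'e]; ring
  have hy₂e' : f y₂ e' = 0 := by
    rw [hy₂, h.add_left, h.add_left, h.smul_left, h.smul_left, hee', he'e']; ring
  have hy₂z : f y₂ z ≠ 0 := by
    rw [hy₂, h.add_left, h.add_left, h.smul_left, h.smul_left, hez, he'z]
    simpa using hy
  obtain ⟨m, hm⟩ := exists_adjust h hzz (ne_zero_comm' h hy₂z) ν₂ h2
  obtain ⟨b, hb⟩ : ∃ b, b = y₂ + m • z := ⟨_, rfl⟩
  rw [← hb] at hm
  have hbe : f b e = 0 := by rw [hb, h.add_left, h.smul_left, hy₂e, hze]; ring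
  have hbe' : f b e' = 0 := by rw [hb, h.add_left, h.smul_left, hy₂e', hze']; ring
  have heb : f e b = 0 := eq_zero_comm' h hbe
  have he'b : f e' b = 0 := eq_zero_comm' h hbe'
  have hbz : f b z ≠ 0 := by
    rw [hb, h.add_left, h.smul_left, hzz]
    simpa using hy₂z
  obtain ⟨l, hl⟩ := exists_trace σ h.ne_refl h.involutive ν₁ h1
  refine ⟨e + l • e', σ κ • e' + b, ?_, ?_, ?_, ?_, ?_, ?_⟩
  · simp only [h.add_left, h.add_right, h.smul_left, h.smul_right, hee, he'e', hee', he'e]
    linear_combination hl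
  · simp only [h.add_left, h.add_right, h.smul_left, h.smul_right, he'e', he'b, hbe', hm]
    ring
  · simp only [h.add_left, h.add_right, h.smul_left, h.smul_right, he'e', he'b, heb, hee',
      h.involutive]
    ring
  · intro h0
    have : f (e + l • e') e' = 1 := by rw [h.add_left, h.smul_left, hee', he'e']; ring
    rw [h0, h.zero_left] at this
    exact zero_ne_one this
  · intro h0
    have : f (σ κ • e' + b) z = f b z := by rw [h.add_left, h.smul_left, he'z]; ring
    rw [h0, h.zero_left] at this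
    exact hbz this.symm
  · intro h0
    have : f (e + l • e' + (σ κ • e' + b)) e' = 1 := by
      simp only [h.add_left, h.smul_left, hee', he'e', hbe']; ring
    rw [h0, h.zero_left] at this
    exact zero_ne_one this

end gen

end Cfsg.Agent.Lib.Helper17.SUNondeg
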