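import Cfsg.Agent.Lib.Helper17.SUNondegA

set_option autoImplicit false

/-! The stabiliser of a non-degenerate subspace of less than half the dimension is maximal in the
special unitary group. -/

namespace Cfsg.Agent.Lib.Helper17.SUNondeg

open Module Cfsg.Agent.Lib.Helper95 Cfsg.Agent.Lib.Helper97

section basic

variable {F V : Type*} [Field F] [AddCommGroup V] [Module F V]
variable {σ : F ≃+* F} {f : V → V → F}

/-- `f` is non-degenerate on `W`. -/
def NDOn (f : V → V → F) (W : Submodule F V) : Prop := ∀ w ∈ W, w ≠ 0 → ∃ x ∈ W, f x w ≠ 0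

/-- the restriction of the form to a subspace -/
def res (f : V → V → F) (W : Submodule F V) : W → W → F := fun x y => f x y

@[simp] lemma res_apply (W : Submodule F V) (x y : W) : res f W x y = f x y := rfl

lemma uf_res (h : UF σ f) {W : Submodule F V} (hW : NDOn f W) : UF σ (res f W) where
  ne_refl := h.ne_refl
  involutive := h.involutive
  add_left := fun x y v => h.add_left x y v
  smul_left := fun c x v => h.smul_left c x v
  herm := fun v w => h.herm v w
  nondeg := by
    intro v hv
    obtain ⟨x, hx, hxv⟩ := hW v v.2 (fun h0 => hv (Subtype.ext h0))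
    exact ⟨⟨x, hx⟩, hxv⟩

/-- the orthogonal complement -/
def perp (h : UF σ f) (W : Submodule F V) : Submodule F V where
  carrier := {x | ∀ w ∈ W, f x w = 0}
  add_mem' := by
    intro a b ha hb w hw
    rw [h.add_left, ha w hw, hb w hw, add_zero]
  zero_mem' := fun w _ => h.zero_left w
  smul_mem' := by
    intro c a ha w hw
    rw [h.smul_left, ha w hw, mul_zero]

lemma mem_perp (h : UF σ f) {W : Submodule F V} {x : V} :
    x ∈ perp h W ↔ ∀ w ∈ W, f x w = 0 := Iff.rfl

end basic

section fin

variable {F V : Type*} [Field F] [Finite F] [AddCommGroup V] [Module F V] [FiniteDimensional F V]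
variable {σ : F ≃+* F} {f : V → V → F} (h : UF σ f)
include h

lemma exists_decomp {W : Submodule F V} (hW : NDOn f W) (v : V) :
    ∃ w ∈ W, ∃ x ∈ perp h W, v = w + x := by
  obtain ⟨w, hw⟩ := (uf_res h hW).exists_hat_eq ((h.hat v).domRestrict W)
  refine ⟨w, w.2, v + (-1 : F) • (w : V), ?_, by module⟩
  intro y hy
  have := LinearMap.congr_fun hw ⟨y, hy⟩
  simp only [UF.hat_apply, res_apply, LinearMap.domRestrict_apply] at this
  apply eq_zero_comm' h
  rw [h.add_right, h.smul_right, this, map_neg, map_one]; ring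

lemma ndOn_perp {W : Submodule F V} (hW : NDOn f W) : NDOn f (perp h W) := by
  intro x hx hx0
  obtain ⟨v, hv⟩ := h.nondeg x hx0
  obtain ⟨w, hw, x', hx', rfl⟩ := exists_decomp h hW v
  refine ⟨x', hx', ?_⟩
  rw [h.add_left, eq_zero_comm' h (hx w hw), zero_add] at hv
  exact hv

omit [Finite F] [FiniteDimensional F V] in
lemma disjoint_perp {W : Submodule F V} (hW : NDOn f W) : Disjoint W (perp h W) := by
  rw [Submodule.disjoint_def]
  intro x hx hx'
  by_contra hx0
  obtain ⟨y, hy, hyx⟩ := hW x hx hx0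
  exact hyx (eq_zero_comm' h (hx' y hy))

lemma isCompl_perp {W : Submodule F V} (hW : NDOn f W) : IsCompl W (perp h W) := by
  refine ⟨disjoint_perp h hW, ?_⟩
  rw [codisjoint_iff, eq_top_iff]
  intro v _
  obtain ⟨w, hw, x, hx, rfl⟩ := exists_decomp h hW v
  exact Submodule.add_mem_sup hw hx

lemma finrank_perp {W : Submodule F V} (hW : NDOn f W) :
    finrank F W + finrank F (perp h W) = finrank F V :=
  Submodule.finrank_add_eq_of_isCompl (isCompl_perp h hW)

lemma mem_of_perp_perp {W : Submodule F V} (hW : NDOn f W) {v : V}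
    (hv : ∀ x ∈ perp h W, f x v = 0) : v ∈ W := by
  obtain ⟨w, hw, x, hx, rfl⟩ := exists_decomp h hW v
  have hx0 : x = 0 := by
    by_contra hx0
    obtain ⟨y, hy, hyx⟩ := ndOn_perp h hW x hx hx0
    apply hyx
    have := hv y hy
    rwa [h.add_right, hy w hw, zero_add] at this
  rw [hx0, add_zero]
  exact hw

variable {M : Subgroup (V ≃ₗ[F] V)}

omit [Finite F] [FiniteDimensional F V] in
/-- transvections with good centres in `X` move the `X`-component -/
lemma good_iff_of_TGrp {X : Submodule F V} (hXM : ∀ z ∈ X, f z z = 0 → GoodV σ f M z) {b : V}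
    (hb : ∀ x ∈ X, f b x = 0) {t : X ≃ₗ[F] X} (ht : t ∈ TGrp σ (res f X)) :
    ∀ y : X, GoodV σ f M (b + y) ↔ GoodV σ f M (b + t y) := by
  induction ht using Subgroup.closure_induction with
  | mem t ht =>
    obtain ⟨z, a, hz, ha, htf⟩ := ht
    have hzz : f (z : V) z = 0 := hz
    intro y
    have e1 : ((t y : X) : V) = y + (a * f y z) • (z : V) := by
      rw [htf]; rfl
    constructor
    · intro hg
      have := hg.tv h (hXM z z.2 hzz) hzz ha
      rw [h.add_left, hb z z.2, zero_add] at this
      rw [e1, ← add_assoc]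
      exact this
    · intro hg
      have := hg.tv h (hXM z z.2 hzz) hzz (a := -a) (by rw [map_neg, ha])
      rw [h.add_left, hb z z.2, zero_add, e1, h.add_left, h.smul_left, hzz] at this
      have e2 : b + ((y : V) + (a * f (y : V) z) • (z : V)) +
          (-a * (f (y : V) z + a * f (y : V) z * 0)) • (z : V) = b + y := by module
      rwa [e2] at this
  | one => intro y; rfl
  | mul s t _ _ hs ht =>
    intro y
    rw [LinearEquiv.mul_apply]
    exact (ht y).trans (hs (t y))
  | inv t _ ht =>
    intro y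
    have := ht (t⁻¹ y)
    rw [← LinearEquiv.mul_apply, mul_inv_cancel] at this
    exact this.symm

/-- Spreading in a large non-degenerate subspace. -/
lemma good_spread {X : Submodule F V} (hX : NDOn f X) (hdim : 6 ≤ finrank F X)
    (hXM : ∀ z ∈ X, f z z = 0 → GoodV σ f M z) {b : V} (hb : ∀ x ∈ X, f b x = 0) {x x' : V}
    (hx : x ∈ X) (hx' : x' ∈ X) (hx0 : x ≠ 0) (hx0' : x' ≠ 0) (hxx : f x x = f x' x')
    (hg : GoodV σ f M (b + x)) : GoodV σ f M (b + x') := by
  obtain ⟨t, ht, htx⟩ := exists_TGrp_trans (uf_res h hX) hdim (x := ⟨x, hx⟩) (x' := ⟨x', hx'⟩)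
    (fun h0 => hx0 (congrArg Subtype.val h0)) (fun h0 => hx0' (congrArg Subtype.val h0)) hxx
  have := (good_iff_of_TGrp h hXM hb ht ⟨x, hx⟩).1 hg
  rwa [htx] at this

end fin

end Cfsg.Agent.Lib.Helper17.SUNondeg
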