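import Cfsg.Agent.Lib.Helper17.UnitTransv

set_option autoImplicit false

namespace Cfsg.Agent.Lib.Helper17

open Matrix

section
variable {F : Type*} [Field F] [Fintype F] {q : ℕ}

/-- normal form of a self-adjoint matrix for the Hermitian form: `N x = ∑ h(x, w j) w j` -/
theorem selfadjoint_form (hF : Fintype.card F = q ^ 2) {n : ℕ} (N : Matrix (Fin n) (Fin n) F)
    (hadj : ∀ x y, Cfsg.hermForm n F q (N *ᵥ x) y = Cfsg.hermForm n F q x (N *ᵥ y)) {r : ℕ} (hr : N.rank = r) :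
    ∃ w u : Fin r → (Fin n → F), LinearIndependent F w ∧
      (∀ i j, Cfsg.hermForm n F q (w i) (u j) = if i = j then 1 else 0) ∧
      (∀ x, N *ᵥ x = ∑ j, Cfsg.hermForm n F q x (w j) • w j) ∧ (∀ j, N *ᵥ u j = w j) := by
  classical
  have hq0 : q ≠ 0 := by have := two_le_of_card_sq hF; omega
  let L := N.mulVecLin
  let R := LinearMap.range L
  obtain ⟨s, hs⟩ := LinearMap.exists_rightInverse_of_surjective L.rangeRestrict (LinearMap.range_rangeRestrict L)
  have hs' : ∀ w : R, N *ᵥ (s w) = (w : Fin n → F) := by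
    intro w
    have := congrArg Subtype.val (LinearMap.congr_fun hs w)
    exact (by simpa using this : L (s w) = w)
  let B : R →ₛₗ[frobQ hF] R →ₗ[F] F :=
    LinearMap.mk₂'ₛₗ (frobQ hF) (RingHom.id F) (fun w' w => Cfsg.hermForm n F q (w : Fin n → F) (s w'))
      (fun x x' y => by rw [map_add, hermForm_add_right hF])
      (fun c x y => by rw [map_smul, hermForm_smul_right, frobQ_apply, smul_eq_mul])
      (fun x y y' => by rw [Submodule.coe_add, hermForm_add_left])
      (fun c x y => by rw [Submodule.coe_smul, hermForm_smul_left, RingHom.id_apply, smul_eq_mul])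
  have hBapp : ∀ w' w : R, B w' w = Cfsg.hermForm n F q (w : Fin n → F) (s w') := fun _ _ => rfl
  have hsymm : B.IsSymm := ⟨fun x y => by
    rw [hBapp, hBapp, frobQ_apply, hermForm_conj hF, ← hs' y, ← hadj, hs' x]⟩
  have hnd : B.Nondegenerate := by
    constructor
    · intro x hx
      apply Subtype.ext
      apply hermForm_right_eq_zero hF
      intro v
      have := hx ⟨N *ᵥ v, ⟨v, rfl⟩⟩
      rw [hBapp] at this
      rw [← hs' x, ← hadj]
      exact this
    · intro y hy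
      apply Subtype.ext
      apply hermForm_left_eq_zero hF
      intro v
      have := hy ⟨N *ᵥ v, ⟨v, rfl⟩⟩
      rw [hBapp, ← hs' y, hadj, hs', ← hadj, hs'] at this
      exact this
  obtain ⟨Φ, hΦ⟩ := exists_herm_coords hF B hsymm hnd (k := r) hr
  refine ⟨fun j => (Φ (Pi.single j 1) : Fin n → F), fun j => s (Φ (Pi.single j 1)), ?_, ?_, ?_, ?_⟩
  · have h1 : LinearIndependent F (fun j : Fin r => Φ (Pi.single j 1)) := by
      have := ((Pi.basisFun F (Fin r)).map Φ).linearIndependent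
      have heq : ⇑((Pi.basisFun F (Fin r)).map Φ) = fun j => Φ (Pi.single j 1) := by
        funext j
        simp
      rwa [heq] at this
    have := h1.map' R.subtype (Submodule.ker_subtype R)
    exact this
  · intro i j
    have := hΦ (Pi.single j 1) (Pi.single i 1)
    rw [hBapp, hermForm_single_left] at this
    rw [this, Pi.single_apply]
    by_cases hij : i = j
    · simp [hij]
    · simp [hij, hq0]
  · intro x
    obtain ⟨c, hc⟩ : ∃ c, Φ c = ⟨N *ᵥ x, ⟨x, rfl⟩⟩ := ⟨Φ.symm _, Φ.apply_symm_apply _⟩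
    have hcj : ∀ j, c j = Cfsg.hermForm n F q x (Φ (Pi.single j 1) : Fin n → F) := by
      intro j
      have := hΦ (Pi.single j 1) c
      rw [hBapp, hc, hermForm_single_right q r hq0] at this
      rw [← this, hadj, hs']
    have hsum : c = ∑ j, c j • (Pi.single j 1 : Fin r → F) := by
      funext i
      simp [Finset.sum_apply, Pi.single_apply]
    have h2 := congrArg Subtype.val hc
    rw [hsum, map_sum] at h2
    simp only [map_smul, Submodule.coe_sum, Submodule.coe_smul] at h2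
    rw [← h2]
    apply Finset.sum_congr rfl
    intro j _
    rw [hcj]
  · intro j
    exact hs' _

/-- involutions of `SU_n(q)`, `q` even, of the same rank are conjugate -/
theorem su_invol_conj (hF : Fintype.card F = q ^ 2) [CharP F 2] {n : ℕ} (a b : ↥(Cfsg.SU n F q))
    (ha : a * a = 1) (hb : b * b = 1) (ha1 : a ≠ 1)
    (hr : (((a : Matrix.SpecialLinearGroup (Fin n) F) : Matrix (Fin n) (Fin n) F) - 1).rank =
      (((b : Matrix.SpecialLinearGroup (Fin n) F) : Matrix (Fin n) (Fin n) F) - 1).rank) : IsConj a b := by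
  classical
  have hq2 := two_le_of_card_sq hF
  have hq0 : q ≠ 0 := by omega
  have h2 : (2 : F) = 0 := CharTwo.two_eq_zero
  have gen : ∀ c : ↥(Cfsg.SU n F q), c * c = 1 →
      (∀ x y, Cfsg.hermForm n F q ((((c : Matrix.SpecialLinearGroup (Fin n) F) : Matrix (Fin n) (Fin n) F) - 1) *ᵥ x) y
        = Cfsg.hermForm n F q x ((((c : Matrix.SpecialLinearGroup (Fin n) F) : Matrix (Fin n) (Fin n) F) - 1) *ᵥ y)) ∧
      (∀ x, (((c : Matrix.SpecialLinearGroup (Fin n) F) : Matrix (Fin n) (Fin n) F) - 1) *ᵥ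
        ((((c : Matrix.SpecialLinearGroup (Fin n) F) : Matrix (Fin n) (Fin n) F) - 1) *ᵥ x) = 0) := by
    intro c hc
    have hcc : ∀ x, ((c : Matrix.SpecialLinearGroup (Fin n) F) : Matrix (Fin n) (Fin n) F) *ᵥ
        (((c : Matrix.SpecialLinearGroup (Fin n) F) : Matrix (Fin n) (Fin n) F) *ᵥ x) = x := by
      intro x
      have h1 : ((c : Matrix.SpecialLinearGroup (Fin n) F) : Matrix (Fin n) (Fin n) F) *
          ((c : Matrix.SpecialLinearGroup (Fin n) F) : Matrix (Fin n) (Fin n) F) = 1 := by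
        have := congrArg (fun z : ↥(Cfsg.SU n F q) =>
          ((z : Matrix.SpecialLinearGroup (Fin n) F) : Matrix (Fin n) (Fin n) F)) hc
        simpa using this
      rw [Matrix.mulVec_mulVec, h1, Matrix.one_mulVec]
    constructor
    · intro x y
      rw [Matrix.sub_mulVec, Matrix.sub_mulVec, Matrix.one_mulVec, Matrix.one_mulVec, hermForm_sub_left,
        hermForm_sub_right hF]
      congr 1
      conv_lhs => rw [← hcc y]
      rw [su_hermForm]
    · intro x
      simp only [Matrix.sub_mulVec, Matrix.one_mulVec, Matrix.mulVec_sub, hcc]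
      funext i
      simp only [Pi.sub_apply, Pi.zero_apply]
      linear_combination (x i - (((c : Matrix.SpecialLinearGroup (Fin n) F) : Matrix (Fin n) (Fin n) F) *ᵥ x) i) * h2
  obtain ⟨hadja, hsqa⟩ := gen a ha
  obtain ⟨hadjb, hsqb⟩ := gen b hb
  obtain ⟨r, hra⟩ : ∃ r, (((a : Matrix.SpecialLinearGroup (Fin n) F) : Matrix (Fin n) (Fin n) F) - 1).rank = r :=
    ⟨_, rfl⟩
  obtain ⟨w, u, hwli, hwu, hform, hNu⟩ := selfadjoint_form hF _ hadja hra
  obtain ⟨w', u', hwli', hwu', hform', hNu'⟩ := selfadjoint_form hF _ hadjb (hr ▸ hra)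
  have hiso : ∀ i j, Cfsg.hermForm n F q (w i) (w j) = 0 := by
    intro i j
    rw [← hNu i, hadja, ← hNu j, hsqa, hermForm_zero_right hq0]
  have hiso' : ∀ i j, Cfsg.hermForm n F q (w' i) (w' j) = 0 := by
    intro i j
    rw [← hNu' i, hadjb, ← hNu' j, hsqb, hermForm_zero_right hq0]
  have hr0 : 0 < r := by
    by_contra hcon
    have hr0 : r = 0 := by omega
    subst hr0
    apply ha1
    apply Subtype.ext
    apply Subtype.ext
    change ((a : Matrix.SpecialLinearGroup (Fin n) F) : Matrix (Fin n) (Fin n) F) = 1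
    rw [Matrix.ext_iff_mulVec]
    intro x
    have := hform x
    rw [Matrix.sub_mulVec, Matrix.one_mulVec] at this
    simp only [Finset.univ_eq_empty, Finset.sum_empty] at this
    rw [Matrix.one_mulVec]
    exact sub_eq_zero.mp this
  let i₀ : Fin r := ⟨0, hr0⟩
  obtain ⟨g, hg⟩ := gu_witt_frame hF n w w' hwli hwli' (by
    intro i j
    rw [hiso, hiso'])
  obtain ⟨t, ht⟩ := exists_trace_eq hF (-(Cfsg.hermForm n F q (u' i₀) (u' i₀))) (by
    rw [neg_pow_q hF, hermForm_conj hF])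
  obtain ⟨u₀, hu₀⟩ : ∃ u₀, u₀ = u' i₀ + t • w' i₀ := ⟨_, rfl⟩
  have hwu₀ : ∀ i, Cfsg.hermForm n F q (w' i) u₀ = if i = i₀ then 1 else 0 := by
    intro i
    rw [hu₀, hermForm_add_right hF, hermForm_smul_right, hiso', hwu']
    ring
  have h1 : Cfsg.hermForm n F q (w' i₀) u₀ = 1 := by rw [hwu₀, if_pos rfl]
  have h1' : Cfsg.hermForm n F q u₀ (w' i₀) = 1 := by rw [← hermForm_conj hF, h1, one_pow]
  have hu₀₀ : Cfsg.hermForm n F q u₀ u₀ = 0 := by
    have e1 : Cfsg.hermForm n F q (w' i₀) (u' i₀) = 1 := by rw [hwu', if_pos rfl]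
    have e2 : Cfsg.hermForm n F q (u' i₀) (w' i₀) = 1 := by rw [← hermForm_conj hF, e1, one_pow]
    rw [hu₀]
    simp only [hermForm_add_left, hermForm_add_right hF, hermForm_smul_left, hermForm_smul_right, hiso', e1, e2]
    linear_combination ht
  have hδ := GU_det_pow hF g.2
  obtain ⟨δ, hδdef⟩ : ∃ δ, δ = ((g : Matrix.GeneralLinearGroup (Fin n) F) : Matrix (Fin n) (Fin n) F).det := ⟨_, rfl⟩
  rw [← hδdef] at hδ
  have hδ0 : δ ≠ 0 := by
    intro h0
    rw [h0, zero_pow (by omega)] at hδ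
    exact zero_ne_one hδ
  have hqeven : Even q := by
    have h3 : ((q ^ 2 : ℕ) : F) = 0 := by rw [← hF]; exact Nat.cast_card_eq_zero F
    have h4 : 2 ∣ q ^ 2 := (CharP.cast_eq_zero_iff F 2 _).mp h3
    exact even_iff_two_dvd.mpr (Nat.Prime.dvd_of_dvd_pow Nat.prime_two h4)
  obtain ⟨k, hk⟩ := hqeven
  -- `ν = δ ^ k` has norm one and `ν ^ (q - 1) = δ⁻¹`... we use `ν` with `ν ^ (q - 1) * δ = 1`
  obtain ⟨ν, hν⟩ : ∃ ν, ν = (δ ^ k)⁻¹ := ⟨_, rfl⟩
  have hν0 : ν ≠ 0 := by rw [hν]; exact inv_ne_zero (pow_ne_zero _ hδ0)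
  have hν1 : ν ^ (q + 1) = 1 := by
    rw [hν, inv_pow, ← pow_mul, mul_comm, pow_mul, hδ, one_pow, inv_one]
  have hν2 : ν ^ (q - 1) * δ = 1 := by
    have e1 : ν ^ (q - 1) * ν ^ 2 = 1 := by
      rw [← pow_add, show q - 1 + 2 = q + 1 by omega, hν1]
    have e2 : ν ^ 2 * δ ^ q = 1 := by
      rw [hν, inv_pow, ← pow_mul, show k * 2 = q by omega, inv_mul_cancel₀ (pow_ne_zero _ hδ0)]
    have e3 : δ ^ q * δ = 1 := by rw [← pow_succ, hδ]
    calc ν ^ (q - 1) * δ = ν ^ (q - 1) * (ν ^ 2 * δ ^ q) * δ := by rw [e2, mul_one]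
      _ = (ν ^ (q - 1) * ν ^ 2) * (δ ^ q * δ) := by ring
      _ = 1 := by rw [e1, e3, mul_one]
  obtain ⟨G, hG⟩ : ∃ G : Matrix (Fin n) (Fin n) F, G = hypDilMat q (w' i₀) u₀ ν *
    ((g : Matrix.GeneralLinearGroup (Fin n) F) : Matrix (Fin n) (Fin n) F) := ⟨_, rfl⟩
  have hGdet : G.det = 1 := by
    rw [hG, Matrix.det_mul, hypDilMat_det _ _ _ hν0 h1 h1' (by omega), ← hδdef, hν2]
  have hGiso : ∀ x y, Cfsg.hermForm n F q (G *ᵥ x) (G *ᵥ y) = Cfsg.hermForm n F q x y := by
    intro x y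
    rw [hG, ← Matrix.mulVec_mulVec, ← Matrix.mulVec_mulVec,
      hypDilMat_isom hF _ _ _ hν0 (hiso' _ _) hu₀₀ h1 h1', gu_hermForm]
  have hGw : ∀ j, G *ᵥ w j = (if j = i₀ then ν ^ q else 1) • w' j := by
    intro j
    rw [hG, ← Matrix.mulVec_mulVec, hg, hypDilMat_mulVec _ _ _ (hiso' _ _), hiso', hwu₀]
    by_cases hj : j = i₀
    · subst hj
      simp only [if_true, mul_one, mul_zero, zero_smul, add_zero, sub_smul, one_smul]
      abel
    · simp [hj]
  have hcnorm : ∀ j : Fin r, (if j = i₀ then ν ^ q else (1 : F)) ^ q * (if j = i₀ then ν ^ q else (1 : F)) = 1 := by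
    intro j
    by_cases hj : j = i₀
    · simp only [hj, if_true]
      rw [← pow_succ, ← pow_mul, mul_comm, pow_mul, hν1, one_pow]
    · simp [hj]
  rw [isConj_iff]
  refine ⟨⟨⟨G, hGdet⟩, hGiso⟩, ?_⟩
  rw [mul_inv_eq_iff_eq_mul]
  apply Subtype.ext
  apply Subtype.ext
  change G * ((a : Matrix.SpecialLinearGroup (Fin n) F) : Matrix (Fin n) (Fin n) F) =
    ((b : Matrix.SpecialLinearGroup (Fin n) F) : Matrix (Fin n) (Fin n) F) * G
  rw [Matrix.ext_iff_mulVec]
  intro x
  have hax : ((a : Matrix.SpecialLinearGroup (Fin n) F) : Matrix (Fin n) (Fin n) F) *ᵥ x =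
      x + ∑ j, Cfsg.hermForm n F q x (w j) • w j := by
    rw [← hform, Matrix.sub_mulVec, Matrix.one_mulVec]
    abel
  have hbx : ((b : Matrix.SpecialLinearGroup (Fin n) F) : Matrix (Fin n) (Fin n) F) *ᵥ (G *ᵥ x) =
      G *ᵥ x + ∑ j, Cfsg.hermForm n F q (G *ᵥ x) (w' j) • w' j := by
    rw [← hform', Matrix.sub_mulVec, Matrix.one_mulVec]
    abel
  rw [← Matrix.mulVec_mulVec, ← Matrix.mulVec_mulVec, hax, hbx, Matrix.mulVec_add, Matrix.mulVec_sum]
  congr 1
  apply Finset.sum_congr rfl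
  intro j _
  rw [Matrix.mulVec_smul, hGw, smul_smul]
  congr 1
  have e := hGiso x (w j)
  rw [hGw, hermForm_smul_right] at e
  rw [← e]
  linear_combination (Cfsg.hermForm n F q (G *ᵥ x) (w' j)) * hcnorm j

end

end Cfsg.Agent.Lib.Helper17
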